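import Cfsg.Agent.H285.Ccp.HNThree
import Cfsg.Agent.H555.Hall.HNThree
import Cfsg.Agent.H866.MeetHN

/-!
# Elements of order 9 of the Harada–Norton group (helper672, S4842)

* `card_inf_le` : `|P ∩ C(y)| ≤ 27` for an element `y` of order 9 of the Sylow 3-subgroup `P` of helper285;
* `not_dvd` : `81` does not divide `|C(y)|` for an element `y` of order 9;
* `dvd` : `27` divides it;
* `nine` : a rational element of order 9.
-/

set_option autoImplicit false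
set_option maxRecDepth 100000

namespace Cfsg.Agent.H672.OZ.HNNine

open Subgroup Cfsg Cfsg.Agent.H839.Rad.Ext Cfsg.Agent.H285.ExtReal Cfsg.Agent.H285.HN3

/-- powers of elements of `Q F` -/
theorem pow_form {q : Spor.HN} (hq : q ∈ ext.Q) (n : ℕ) : ∃ q' ∈ ext.Q, (q * F) ^ n = q' * F ^ n := by
  induction n with
  | zero => exact ⟨1, one_mem _, by simp⟩
  | succ n ih =>
    obtain ⟨q', hq', h⟩ := ih
    have h1 : F ^ n * q * (F ^ n)⁻¹ ∈ ext.Q := by
      have := Fz_Q (n : ℤ) q hq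
      rwa [zpow_natCast] at this
    refine ⟨q' * (F ^ n * q * (F ^ n)⁻¹), mul_mem hq' h1, ?_⟩
    rw [pow_succ, h, pow_succ]
    group

theorem comm_W {x : Spor.HN} (hx : x ∈ ext.Q) : Commute W x := (ext.comm_w x hx).symm

/-- `[x, F]` central: `x` commutes with `a⁻¹ (F a F⁻¹)` -/
theorem comm_of_central {x a : Spor.HN} (hx : x ∈ ext.Q) (ha : a ∈ ext.Q) {e : ℤ} (h : F * x * F⁻¹ = W ^ e * x) :
    Commute x (a⁻¹ * (F * a * F⁻¹)) := by
  have ha' : F * a * F⁻¹ ∈ ext.Q := F_Q a ha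
  obtain ⟨t, ht⟩ := mem_zpowers_iff.1 (ext.commutator_mem x hx a ha)
  have h1 : x * a * x⁻¹ = W ^ t * a := by rw [ht]; group
  have cW : ∀ (n : ℤ) {z : Spor.HN}, z ∈ ext.Q → Commute (W ^ n) z := fun n z hz => (comm_W hz).zpow_left n
  have hFW : Commute F W := e_fw
  have h2 : x * (F * a * F⁻¹) * x⁻¹ = W ^ t * (F * a * F⁻¹) := by
    have h3 : x = W ^ (-e) * (F * x * F⁻¹) := by rw [h, ← mul_assoc, ← zpow_add, neg_add_cancel, zpow_zero, one_mul]
    have h4 : W ^ (-e) * ((F * x * F⁻¹) * (F * a * F⁻¹) * (F * x * F⁻¹)⁻¹) * (W ^ (-e))⁻¹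
        = W ^ t * (F * a * F⁻¹) := by
      have h5 : (F * x * F⁻¹) * (F * a * F⁻¹) * (F * x * F⁻¹)⁻¹ = F * (x * a * x⁻¹) * F⁻¹ := by group
      have h6 : F * (W ^ t * a) * F⁻¹ = W ^ t * (F * a * F⁻¹) := by
        rw [← mul_assoc, (hFW.zpow_right t).eq]
        group
      rw [h5, h1, h6, ((cW (-e) (mul_mem (ext.wpow_mem t) ha')).eq), mul_inv_cancel_right]
    rw [← h4]
    conv_lhs => rw [h3]
    group
  have h3 : x * (a⁻¹ * (F * a * F⁻¹)) * x⁻¹ = a⁻¹ * (F * a * F⁻¹) := by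
    calc x * (a⁻¹ * (F * a * F⁻¹)) * x⁻¹ = (x * a * x⁻¹)⁻¹ * (x * (F * a * F⁻¹) * x⁻¹) := by group
      _ = _ := by rw [h1, h2]; group
  exact mul_inv_eq_iff_eq_mul.1 h3

/-- `[x, F]` central: the exponents of `A` and `C₁` vanish -/
theorem exps {i j u l m : ℤ} {e : ℤ}
    (h : F * nf W A B C₁ D i j u l m * F⁻¹ = W ^ e * nf W A B C₁ D i j u l m) : (3 : ℤ) ∣ i ∧ (3 : ℤ) ∣ u := by
  have hx := ext.nf_mem i j u l m
  set x := nf W A B C₁ D i j u l m with hxd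
  have cWx : Commute x W := (comm_W hx).symm
  have h1 : Commute x (B * W) := by
    have h2 := comm_of_central hx ext.a_mem h
    have h3 : A⁻¹ * (F * A * F⁻¹) = B * W := by
      rw [F_A]
      simp [nf, mul_assoc]
    rwa [h3] at h2
  have hB : Commute x B := by
    have h2 := h1.mul_right cWx.inv_right
    rwa [mul_inv_cancel_right] at h2
  have h4 : Commute x (D ^ 2 * W ^ 2) := by
    have h2 := comm_of_central hx ext.c_mem h
    have h3 : C₁⁻¹ * (F * C₁ * F⁻¹) = D ^ 2 * W ^ 2 := by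
      rw [F_C]
      simp only [nf, zpow_zero, one_mul, mul_one, zpow_one]
      rw [show (2 : ℤ) = ((2 : ℕ) : ℤ) by rfl, zpow_natCast, zpow_natCast, mul_assoc, inv_mul_cancel_left]
    rwa [h3] at h2
  have hD2 : Commute x (D ^ 2) := by
    have h2 := h4.mul_right (cWx.pow_right 2).inv_right
    rwa [mul_inv_cancel_right] at h2
  have hD : Commute x D := by
    have h2 := hD2.pow_right 2
    have h3 : (D ^ 2) ^ 2 = D := by
      rw [← pow_mul]
      calc D ^ (2 * 2) = D ^ 3 * D := by rw [← pow_succ]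
        _ = D := by rw [e_d3, one_mul]
    rwa [h3] at h2
  constructor
  · have h2 : nf W A B C₁ D i j u l m * nf W A B C₁ D 0 1 0 0 0 = nf W A B C₁ D 0 1 0 0 0 * nf W A B C₁ D i j u l m := by
      have h3 : nf W A B C₁ D 0 1 0 0 0 = B := by simp [nf]
      rw [h3]
      exact hB
    have h3 := ext.comm_iff.1 h2
    simpa using h3
  · have h2 : nf W A B C₁ D i j u l m * nf W A B C₁ D 0 0 0 1 0 = nf W A B C₁ D 0 0 0 1 0 * nf W A B C₁ D i j u l m := by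
      have h3 : nf W A B C₁ D 0 0 0 1 0 = D := by simp [nf]
      rw [h3]
      exact hD
    have h3 := ext.comm_iff.1 h2
    simpa using h3

theorem ext_w3 : W ^ 3 = 1 := e_w3

theorem nf_red {i j u l m : ℤ} (hi : (3 : ℤ) ∣ i) (hu : (3 : ℤ) ∣ u) :
    nf W A B C₁ D i j u l m = nf W A B C₁ D 0 j 0 l m := by
  unfold nf
  rw [zpow_eq ext.ha (i := i) (j := 0) (by simpa using hi), zpow_eq ext.hc (i := u) (j := 0) (by simpa using hu)]

theorem F_comm (j l m : ℤ) : Commute F (nf W A B C₁ D 0 j 0 l m) := by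
  have h1 : Commute F B := e_fb
  have h2 : Commute F D := e_fd
  have h3 : Commute F W := e_fw
  have h4 : nf W A B C₁ D 0 j 0 l m = B ^ j * D ^ l * W ^ m := by simp [nf]
  rw [h4]
  exact ((h1.zpow_right j).mul_right (h2.zpow_right l)).mul_right (h3.zpow_right m)

/-- an element `q F` whose cube is not 1: the exponents of `A`, `C₁` do not both vanish -/
theorem not_both {i j u l m : ℤ} (h9 : (nf W A B C₁ D i j u l m * F) ^ 3 ≠ 1) : ¬ ((3 : ℤ) ∣ i ∧ (3 : ℤ) ∣ u) := by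
  rintro ⟨hi, hu⟩
  apply h9
  rw [nf_red hi hu, ← (F_comm j l m).eq, (F_comm j l m).mul_pow, e_f3, one_mul]
  exact ext.pow_eq_one (by decide) _ (ext.nf_mem _ _ _ _ _)

/-- elements of `Q` commuting with `q F` -/
theorem exps_of_comm {i₀ j₀ u₀ l₀ m₀ i j u l m : ℤ}
    (h : nf W A B C₁ D i j u l m * (nf W A B C₁ D i₀ j₀ u₀ l₀ m₀ * F)
      = nf W A B C₁ D i₀ j₀ u₀ l₀ m₀ * F * nf W A B C₁ D i j u l m) :
    (3 : ℤ) ∣ i ∧ (3 : ℤ) ∣ u ∧ (3 : ℤ) ∣ i₀ * j + u₀ * l := by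
  set q := nf W A B C₁ D i₀ j₀ u₀ l₀ m₀ with hq
  have hqQ : q ∈ ext.Q := ext.nf_mem _ _ _ _ _
  have hxQ := ext.nf_mem i j u l m
  have h1 : F * nf W A B C₁ D i j u l m * F⁻¹ = q⁻¹ * nf W A B C₁ D i j u l m * q := by
    calc F * nf W A B C₁ D i j u l m * F⁻¹ = q⁻¹ * (q * F * nf W A B C₁ D i j u l m) * F⁻¹ := by group
      _ = q⁻¹ * (nf W A B C₁ D i j u l m * (q * F)) * F⁻¹ := by rw [h]
      _ = _ := by group
  obtain ⟨e, he⟩ := mem_zpowers_iff.1 (ext.commutator_mem q⁻¹ (inv_mem hqQ) _ hxQ)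
  obtain ⟨hi, hu⟩ := exps (e := e) (by rw [h1, he]; group)
  refine ⟨hi, hu, ?_⟩
  rw [nf_red hi hu] at h1
  rw [(F_comm j l m).eq, mul_inv_cancel_right] at h1
  have h2 : q * nf W A B C₁ D 0 j 0 l m = nf W A B C₁ D 0 j 0 l m * q := by
    calc q * nf W A B C₁ D 0 j 0 l m = q * (q⁻¹ * nf W A B C₁ D 0 j 0 l m * q) := by rw [← h1]
      _ = _ := by group
  have h3 := ext.comm_iff.1 h2
  simpa using h3

theorem residues {i₀ u₀ j l : ℤ} (h0 : ¬ ((3 : ℤ) ∣ i₀ ∧ (3 : ℤ) ∣ u₀)) (h : (3 : ℤ) ∣ i₀ * j + u₀ * l) :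
    ∃ a : ℕ, a < 3 ∧ (3 : ℤ) ∣ j - a * (-u₀) ∧ (3 : ℤ) ∣ l - a * i₀ := by
  have key : ∀ i₀ u₀ j l : ZMod 3, ¬ (i₀ = 0 ∧ u₀ = 0) → i₀ * j + u₀ * l = 0 →
      ∃ a : Fin 3, j - (a : ℕ) * (-u₀) = 0 ∧ l - (a : ℕ) * i₀ = 0 := by decide
  have hz : ∀ n : ℤ, ((n : ℤ) : ZMod 3) = 0 ↔ (3 : ℤ) ∣ n := fun n => ZMod.intCast_zmod_eq_zero_iff_dvd n 3
  obtain ⟨a, h1, h2⟩ := key i₀ u₀ j l (by rw [hz, hz]; exact h0) (by
    have h3 := (hz _).2 h
    push_cast at h3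
    exact h3)
  refine ⟨a, a.2, (hz _).1 ?_, (hz _).1 ?_⟩
  · push_cast
    exact h1
  · push_cast
    exact h2

theorem zpow_lt {w : Spor.HN} (hw : w ^ 3 = 1) (m : ℤ) : ∃ n : ℕ, n < 3 ∧ w ^ m = w ^ n := by
  refine ⟨(m % 3).toNat, by omega, ?_⟩
  rw [← zpow_natCast]
  exact zpow_eq hw (by omega)

/-- **`Q ∩ C(q F)`** -/
theorem form_Q {i₀ j₀ u₀ l₀ m₀ : ℤ} (h9 : (nf W A B C₁ D i₀ j₀ u₀ l₀ m₀ * F) ^ 3 ≠ 1) {x : Spor.HN} (hx : x ∈ ext.Q)
    (h : x * (nf W A B C₁ D i₀ j₀ u₀ l₀ m₀ * F) = nf W A B C₁ D i₀ j₀ u₀ l₀ m₀ * F * x) :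
    ∃ a < 3, ∃ n < 3, x = (nf W A B C₁ D 0 (-u₀) 0 i₀ 0) ^ a * W ^ n := by
  obtain ⟨i, j, u, l, m, rfl⟩ := hx
  obtain ⟨hi, hu, hjl⟩ := exps_of_comm h
  obtain ⟨a, ha, hj, hl⟩ := residues (not_both h9) hjl
  obtain ⟨n, hn, hm⟩ := zpow_lt ext_w3 m
  refine ⟨a, ha, n, hn, ?_⟩
  obtain ⟨e, -, he⟩ := ext.nf_pow 0 (-u₀) 0 i₀ 0 a
  rw [he, ← hm, nf_red hi hu, nf_mod hj hl]
  simp [nf]

/-- **`P ∩ C(q F)`** -/
theorem card_QF {q : Spor.HN} (hq : q ∈ ext.Q) (h9 : (q * F) ^ 3 ≠ 1) :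
    Nat.card ↥(P ⊓ centralizer ({q * F} : Set Spor.HN)) ≤ 27 := by
  obtain ⟨i₀, j₀, u₀, l₀, m₀, rfl⟩ := hq
  set y := nf W A B C₁ D i₀ j₀ u₀ l₀ m₀ * F with hy
  set t := nf W A B C₁ D 0 (-u₀) 0 i₀ 0 with ht
  have hf : ∀ x : ↥(P ⊓ centralizer ({y} : Set Spor.HN)), ∃ c : Fin 3 × Fin 3 × Fin 3,
      (x : Spor.HN) = t ^ (c.1 : ℕ) * W ^ (c.2.1 : ℕ) * y ^ (c.2.2 : ℕ) := by
    rintro ⟨x, hxP, hxC⟩
    obtain ⟨q', hq', s, rfl⟩ := hxP
    obtain ⟨k, hk, hs⟩ := zpow_lt e_f3 s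
    obtain ⟨q'', hq'', hyk⟩ := pow_form (ext.nf_mem i₀ j₀ u₀ l₀ m₀) k
    have hxC' : q' * F ^ s * y = y * (q' * F ^ s) := mem_centralizer_singleton_iff.1 hxC
    have h1 : q' * F ^ s * (y ^ k)⁻¹ = q' * q''⁻¹ := by
      rw [hs, hy, hyk]
      group
    have h2 : q' * F ^ s * (y ^ k)⁻¹ * y = y * (q' * F ^ s * (y ^ k)⁻¹) := by
      have h3 : Commute (q' * F ^ s) y := hxC'
      exact h3.mul_left ((Commute.refl y).pow_left k).inv_left
    rw [h1] at h2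
    obtain ⟨a, ha, n, hn, h3⟩ := form_Q h9 (mul_mem hq' (inv_mem hq'')) h2
    refine ⟨(⟨a, ha⟩, ⟨n, hn⟩, ⟨k, hk⟩), ?_⟩
    change q' * F ^ s = t ^ a * W ^ n * y ^ k
    rw [ht, ← h3, ← h1, inv_mul_cancel_right]
  choose f hf using hf
  have hinj : Function.Injective f := fun a b hab => Subtype.ext (by rw [hf a, hf b, hab])
  have h := Nat.card_le_card_of_injective f hinj
  simpa using h

theorem card_inf_le {y : Spor.HN} (hy : y ∈ P) (h9 : y ^ 3 ≠ 1) :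
    Nat.card ↥(P ⊓ centralizer ({y} : Set Spor.HN)) ≤ 27 := by
  obtain ⟨q, hq, s, rfl⟩ := hy
  have h3 : (3 : ℤ) ∣ s - 0 ∨ (3 : ℤ) ∣ s - 1 ∨ (3 : ℤ) ∣ s - (-1) := by omega
  rcases h3 with h | h | h
  · exfalso
    apply h9
    rw [zpow_eq e_f3 h, zpow_zero, mul_one]
    exact ext.pow_eq_one (by decide) _ hq
  · rw [zpow_eq e_f3 h, zpow_one] at h9 ⊢
    exact card_QF hq h9
  · rw [zpow_eq e_f3 h, zpow_neg_one] at h9 ⊢
    have h1 : F * q⁻¹ * F⁻¹ * F = (q * F⁻¹)⁻¹ := by group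
    have h2 := card_QF (F_Q _ (inv_mem hq)) (by
      rw [h1]
      intro h4
      apply h9
      rwa [inv_pow, inv_eq_one] at h4)
    have h4 : centralizer ({F * q⁻¹ * F⁻¹ * F} : Set Spor.HN) = centralizer ({q * F⁻¹} : Set Spor.HN) := by
      rw [h1]
      ext z
      rw [mem_centralizer_singleton_iff, mem_centralizer_singleton_iff]
      exact Commute.inv_right_iff
    rwa [h4] at h2

/-- **`81` does not divide `|C(y)|`, `y` of order 9.** -/
theorem not_dvd {y : Spor.HN} (hy : orderOf y = 9) : ¬ 81 ∣ Nat.card ↥(centralizer ({y} : Set Spor.HN)) := by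
  intro hd
  obtain ⟨R₀, hR₀⟩ := Sylow.exists_subgroup_card_pow_prime (G := ↥(centralizer ({y} : Set Spor.HN))) 3 (n := 4)
    (by norm_num; exact hd)
  set R := R₀.map (centralizer ({y} : Set Spor.HN)).subtype with hR
  have hRc : Nat.card R = 3 ^ 4 := by
    rw [hR, Subgroup.card_map_of_injective (Subtype.val_injective), hR₀]
  have hRy : ∀ r ∈ R, r * y = y * r := by
    rintro _ ⟨r, -, rfl⟩
    exact mem_centralizer_singleton_iff.1 r.2
  have hpR : IsPGroup 3 R := IsPGroup.of_card hRc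
  have hpy : IsPGroup 3 (zpowers y) := IsPGroup.of_card (n := 2) (by rw [Nat.card_zpowers, hy]; norm_num)
  have hle : R ≤ normalizer (zpowers y : Set Spor.HN) := by
    intro r hr
    rw [mem_normalizer_iff]
    intro h
    have hcom : ∀ k : ℤ, r * y ^ k * r⁻¹ = y ^ k := by
      intro k
      have : Commute r (y ^ k) := (show Commute r y from hRy r hr).zpow_right k
      rw [this.eq, mul_inv_cancel_right]
    constructor
    · rintro ⟨k, rfl⟩
      exact ⟨k, (hcom k).symm⟩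
    · rintro ⟨k, hk⟩
      refine ⟨k, ?_⟩
      have hk' : y ^ k = r * h * r⁻¹ := hk
      have : r * h * r⁻¹ = r * y ^ k * r⁻¹ := by rw [hcom k, hk']
      exact (mul_left_cancel (mul_right_cancel this)).symm
  obtain ⟨T, hT⟩ := (hpR.to_sup_of_normal_right' hpy hle).exists_le_sylow
  obtain ⟨x, hx⟩ := MulAction.exists_smul_eq Spor.HN T (isPGroup_P.toSylow index_P)
  have h2 : (T : Subgroup Spor.HN).map (MulAut.conj x).toMonoidHom = P := by
    have := congrArg (fun S : Sylow 3 Spor.HN => (S : Subgroup Spor.HN)) hx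
    exact this
  have hmem : ∀ g ∈ R ⊔ zpowers y, x * g * x⁻¹ ∈ P := by
    intro g hg
    rw [← h2]
    exact ⟨g, hT hg, rfl⟩
  have h9 : (x * y * x⁻¹) ^ 3 ≠ 1 := by
    rw [conj_pow, Ne, conj_eq_one_iff]
    intro h
    have := orderOf_dvd_of_pow_eq_one h
    rw [hy] at this
    exact absurd this (by decide)
  have h3 := card_inf_le (hmem y (mem_sup_right (mem_zpowers y))) h9
  have h4 : Nat.card R ≤ Nat.card ↥(P ⊓ centralizer ({x * y * x⁻¹} : Set Spor.HN)) := by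
    refine Nat.card_le_card_of_injective (fun r => (⟨x * r * x⁻¹, hmem r (mem_sup_left r.2), ?_⟩ :
      ↥(P ⊓ centralizer ({x * y * x⁻¹} : Set Spor.HN)))) ?_
    · change x * r * x⁻¹ ∈ centralizer ({x * y * x⁻¹} : Set Spor.HN)
      rw [mem_centralizer_singleton_iff]
      calc x * r * x⁻¹ * (x * y * x⁻¹) = x * (r * y) * x⁻¹ := by group
        _ = x * (y * r) * x⁻¹ := by rw [hRy r r.2]
        _ = _ := by group
    · intro a b hab
      have h5 := congrArg Subtype.val hab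
      exact Subtype.ext (mul_left_cancel (mul_right_cancel h5))
  rw [hRc] at h4
  have := h4.trans h3
  norm_num at this

/-- `27` divides the order of the centralizer of `q F` -/
theorem dvd_QF {q : Spor.HN} (hq : q ∈ ext.Q) (h9 : orderOf (q * F) = 9) :
    27 ∣ Nat.card ↥(centralizer ({q * F} : Set Spor.HN)) := by
  by_contra hc
  have hp3 : Fact (Nat.Prime 3) := ⟨Nat.prime_three⟩
  have h3 : (q * F) ^ 3 ≠ 1 := by
    intro h
    have := orderOf_dvd_of_pow_eq_one h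
    rw [h9] at this
    exact absurd this (by decide)
  obtain ⟨i₀, j₀, u₀, l₀, m₀, rfl⟩ := hq
  have h0 := not_both h3
  set q := nf W A B C₁ D i₀ j₀ u₀ l₀ m₀ with hq
  set t := nf W A B C₁ D 0 (-u₀) 0 i₀ 0 with ht
  have hqQ : q ∈ ext.Q := ext.nf_mem _ _ _ _ _
  have htQ : t ∈ ext.Q := ext.nf_mem _ _ _ _ _
  -- `t` is not in the centre
  have htW : ∀ n : ℕ, t ≠ W ^ n := by
    intro n h
    apply h0
    have hcen : ∀ z ∈ ext.Q, t * z = z * t := fun z hz => by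
      rw [h]
      exact ((comm_W hz).pow_left n).eq
    have h1 := ext.comm_iff.1 (hcen _ (ext.nf_mem 1 0 0 0 0))
    have h2 := ext.comm_iff.1 (hcen _ (ext.nf_mem 0 0 1 0 0))
    constructor
    · simpa using h2
    · simpa using h1
  have ht3 : t ^ 3 = 1 := ext.pow_eq_one (by decide) _ htQ
  have ho : orderOf t = 3 := orderOf_eq_prime ht3 fun h => htW 0 (by rw [h, pow_zero])
  have hty : t * (q * F) = q * F * t := by
    have h1 : t * q = q * t := ext.comm_iff.2 (by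
      refine ⟨0, ?_⟩
      ring)
    rw [← mul_assoc, h1, mul_assoc, mul_assoc, (F_comm (-u₀) i₀ 0).eq]
  have hWy : W * (q * F) = q * F * W := by
    rw [← mul_assoc, (comm_W hqQ).eq, mul_assoc, mul_assoc, (show F * W = W * F from e_fw)]
  have hoW : orderOf W = 3 := ext.hw
  refine Cfsg.Agent.H866.MeetHN.no_nine (K := ↥(centralizer ({q * F} : Set Spor.HN))) hc
    (a := ⟨W, mem_centralizer_singleton_iff.2 hWy⟩) (b := ⟨t, mem_centralizer_singleton_iff.2 hty⟩)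
    (by rw [Subgroup.orderOf_mk, hoW]) (by rw [Subgroup.orderOf_mk, ho]) (Subtype.ext (comm_W htQ).eq)
    (fun h => htW 1 (by rw [pow_one]; exact congrArg Subtype.val h))
    (fun h => htW 2 (by rw [pow_two]; exact congrArg Subtype.val h))
    (g := ⟨q * F, mem_centralizer_singleton_iff.2 rfl⟩) (by rw [Subgroup.orderOf_mk, h9])

theorem card_cent_conj (x y : Spor.HN) : Nat.card ↥(centralizer ({x * y * x⁻¹} : Set Spor.HN))
    = Nat.card ↥(centralizer ({y} : Set Spor.HN)) := by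
  refine Nat.card_congr ⟨fun g => ⟨x⁻¹ * g * x, ?_⟩, fun g => ⟨x * g * x⁻¹, ?_⟩, ?_, ?_⟩
  · rw [mem_centralizer_singleton_iff]
    have h1 := mem_centralizer_singleton_iff.1 g.2
    calc x⁻¹ * g * x * y = x⁻¹ * (g * (x * y * x⁻¹)) * x := by group
      _ = x⁻¹ * (x * y * x⁻¹ * g) * x := by rw [h1]
      _ = y * (x⁻¹ * g * x) := by group
  · rw [mem_centralizer_singleton_iff]
    have h1 := mem_centralizer_singleton_iff.1 g.2
    calc x * g * x⁻¹ * (x * y * x⁻¹) = x * (g * y) * x⁻¹ := by group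
      _ = x * (y * g) * x⁻¹ := by rw [h1]
      _ = x * y * x⁻¹ * (x * g * x⁻¹) := by group
  · intro g
    exact Subtype.ext (by simp [mul_assoc])
  · intro g
    exact Subtype.ext (by simp [mul_assoc])

/-- **`27` divides `|C(y)|`, `y` of order 9.** -/
theorem dvd {y : Spor.HN} (hy : orderOf y = 9) : 27 ∣ Nat.card ↥(centralizer ({y} : Set Spor.HN)) := by
  have hpy : IsPGroup 3 (zpowers y) := IsPGroup.of_card (n := 2) (by rw [Nat.card_zpowers, hy]; norm_num)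
  obtain ⟨T, hT⟩ := hpy.exists_le_sylow
  obtain ⟨x, hx⟩ := MulAction.exists_smul_eq Spor.HN T (isPGroup_P.toSylow index_P)
  have h2 : (T : Subgroup Spor.HN).map (MulAut.conj x).toMonoidHom = P := by
    have := congrArg (fun S : Sylow 3 Spor.HN => (S : Subgroup Spor.HN)) hx
    exact this
  have hmem : x * y * x⁻¹ ∈ P := by
    rw [← h2]
    exact ⟨y, hT (mem_zpowers y), rfl⟩
  have h9 : orderOf (x * y * x⁻¹) = 9 := by rw [← MulAut.conj_apply, MulEquiv.orderOf_eq, hy]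
  rw [← card_cent_conj x y]
  obtain ⟨q, hq, s, hs⟩ := hmem
  rw [hs] at h9 ⊢
  have h3 : (3 : ℤ) ∣ s - 0 ∨ (3 : ℤ) ∣ s - 1 ∨ (3 : ℤ) ∣ s - (-1) := by omega
  rcases h3 with h | h | h
  · exfalso
    rw [zpow_eq e_f3 h, zpow_zero, mul_one] at h9
    have h4 : q ^ 3 = 1 := ext.pow_eq_one (by decide) _ hq
    have := orderOf_dvd_of_pow_eq_one h4
    rw [h9] at this
    exact absurd this (by decide)
  · rw [zpow_eq e_f3 h, zpow_one] at h9 ⊢
    exact dvd_QF hq h9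
  · rw [zpow_eq e_f3 h, zpow_neg_one] at h9 ⊢
    have h1 : F * q⁻¹ * F⁻¹ * F = (q * F⁻¹)⁻¹ := by group
    have h2 := dvd_QF (F_Q _ (inv_mem hq)) (by rw [h1, orderOf_inv, h9])
    have h4 : centralizer ({F * q⁻¹ * F⁻¹ * F} : Set Spor.HN) = centralizer ({q * F⁻¹} : Set Spor.HN) := by
      rw [h1]
      ext z
      rw [mem_centralizer_singleton_iff, mem_centralizer_singleton_iff]
      exact Commute.inv_right_iff
    rwa [h4] at h2

/-- an element of order 9 conjugate to its square is rational -/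
theorem rat_of_sq {G : Type*} [Group G] [Finite G] {y : G} (hy : orderOf y = 9) (h : IsConj y (y ^ 2)) :
    ∀ m : ℕ, m.Coprime (Nat.card G) → IsConj (y ^ m) y := by
  have hpow : ∀ {a b : G}, IsConj a b → ∀ m : ℕ, IsConj (a ^ m) (b ^ m) := by
    intro a b hab m
    obtain ⟨c, rfl⟩ := isConj_iff.1 hab
    exact isConj_iff.2 ⟨c, conj_pow.symm⟩
  have h1 : ∀ k : ℕ, IsConj y (y ^ 2 ^ k) := by
    intro k
    induction k with
    | zero => rw [pow_zero, pow_one]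
    | succ k ih =>
      have h2 := hpow h (2 ^ k)
      rw [← pow_mul, ← pow_succ'] at h2
      exact ih.trans h2
  intro m hm
  have h3 : m % 3 ≠ 0 := by
    intro h0
    have h4 : 3 ∣ m := Nat.dvd_of_mod_eq_zero h0
    have h5 : 3 ∣ Nat.card G := ((by norm_num : 3 ∣ 9).trans (dvd_of_eq hy.symm)).trans (orderOf_dvd_natCard y)
    have h6 := Nat.dvd_gcd h4 h5
    rw [hm] at h6
    norm_num at h6
  have h4 : ∀ k : ℕ, m % 9 = 2 ^ k % 9 → IsConj (y ^ m) y := by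
    intro k hk
    have h5 : y ^ m = y ^ 2 ^ k := by
      rw [pow_eq_pow_iff_modEq, hy]
      exact hk
    rw [h5]
    exact (h1 k).symm
  have h5 : m % 9 = 1 ∨ m % 9 = 2 ∨ m % 9 = 4 ∨ m % 9 = 5 ∨ m % 9 = 7 ∨ m % 9 = 8 := by omega
  rcases h5 with h5 | h5 | h5 | h5 | h5 | h5
  · exact h4 0 (by rw [h5]; rfl)
  · exact h4 1 (by rw [h5]; rfl)
  · exact h4 2 (by rw [h5]; rfl)
  · exact h4 5 (by rw [h5]; rfl)
  · exact h4 4 (by rw [h5]; rfl)
  · exact h4 3 (by rw [h5]; rfl)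

/-! ### a rational element of order 9 -/

section rat

open Cfsg.Agent.H555.Hall.HNThree (X9 c9 c9_mem order_X9)
open Cfsg.Agent.CpAutHN.Alt Cfsg.Agent.CpAutHN.Pairs

/-- conjugates the 9-cycle to its square -/
def s9 : Equiv.Perm (Fin 12) := cy [3, 6, 4, 8, 5, 7] * cy [1, 2]

theorem s9_mem : s9 ∈ alternatingGroup (Fin 12) := by rw [Equiv.Perm.mem_alternatingGroup]; decide +kernel

theorem s9_conj : s9 * c9 * s9⁻¹ = c9 ^ 2 := by decide +kernel

theorem X9_conj : IsConj X9 (X9 ^ 2) := by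
  refine isConj_iff.2 ⟨Φ ⟨s9, s9_mem⟩, ?_⟩
  change Φ ⟨s9, s9_mem⟩ * Φ ⟨c9, c9_mem⟩ * (Φ ⟨s9, s9_mem⟩)⁻¹ = (Φ ⟨c9, c9_mem⟩) ^ 2
  rw [← map_mul, ← map_inv, ← map_mul, ← map_pow]
  exact congrArg _ (Subtype.ext s9_conj)

/-- **A rational element of order 9.** -/
theorem nine : ∃ y : Spor.HN, orderOf y = 9 ∧ (∀ m : ℕ, m.Coprime (Nat.card Spor.HN) → IsConj (y ^ m) y) ∧
    27 ∣ Nat.card ↥(centralizer ({y} : Set Spor.HN)) ∧ ¬ 81 ∣ Nat.card ↥(centralizer ({y} : Set Spor.HN)) := by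
  have h9 : orderOf X9 = 9 := by rw [order_X9]; norm_num
  exact ⟨X9, h9, rat_of_sq h9 X9_conj, dvd h9, not_dvd h9⟩

end rat

end Cfsg.Agent.H672.OZ.HNNine
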