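import Cfsg.Agent.H672.OZ.Sieve
import Cfsg.Agent.H730.OZ.Asm
import Cfsg.Agent.H715.Fpr.MathData

/-!
# One vanishing class: `M₂₃`, `M₂₄` (helper672, S4842)

The order of the group, the isolated primes 11, 23 (helper849's T5), T4 (helper733) and `Full` leave no degree.
-/

set_option autoImplicit false
set_option maxRecDepth 100000

open Cfsg Cfsg.Agent.Characters Cfsg.Agent.H732.VZ Cfsg.Agent.H604.OZ

namespace Cfsg.Agent.H672.OZ

universe u

open Cfsg.Agent.H715.Fpr.MathData in
/-- the order of the centralizer of an element of prime order -/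
theorem card_cent_zpowers {G : Type u} [Group G] {p C N : ℕ}
    (h : ∀ {R : Subgroup G}, Nat.card R = p → Nat.card (Subgroup.centralizer (R : Set G)) = C ∧
      Nat.card (Subgroup.normalizer (R : Set G)) = N) {y : G} (hy : orderOf y = p) :
    Nat.card (Subgroup.centralizer ({y} : Set G)) = C := by
  have h1 : Subgroup.centralizer ((Subgroup.zpowers y : Subgroup G) : Set G) = Subgroup.centralizer ({y} : Set G) := by
    rw [Subgroup.zpowers_eq_closure, Subgroup.centralizer_closure]
  rw [← h1]
  exact (h (R := Subgroup.zpowers y) (by rw [Nat.card_zpowers, hy])).1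

theorem row_m24' [Finite M24] : H730.OZ.Row M24 := by
  have hN : Nat.card M24 = 244823040 := H715.Fpr.MathData.card24
  have hs : IsSimpleGroup M24 := H715.Fpr.MathData.simple24
  refine row_of fun χ x h => ?_
  have h4 : 4 ≤ cent x := four_le_cent h (by rw [hN]; norm_num) (by rw [hN]; norm_num)
  have hiso : ∀ r ∈ [11, 23], charDegree (χ : M24 → ℂ) % r = 0 ∨
      charDegree (χ : M24 → ℂ) % r = 1 ∨ charDegree (χ : M24 → ℂ) % r = r - 1 := by
    intro r hr
    simp only [List.mem_cons, List.not_mem_nil, or_false] at hr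
    rcases hr with rfl | rfl
    · exact iso_mod h (by norm_num) (by norm_num) (by rw [hN]; norm_num) (by rw [hN]; norm_num) (by rw [hN]; norm_num)
        (fun y hy => card_cent_zpowers H715.Fpr.MathData.cn24_11 hy) h4
    · exact iso_mod h (by norm_num) (by norm_num) (by rw [hN]; norm_num) (by rw [hN]; norm_num) (by rw [hN]; norm_num)
        (fun y hy => card_cent_zpowers H715.Fpr.MathData.cn24_23 hy) h4
  have hm := mem_of_sieve4 h hN (l := [(2,10),(3,3),(5,1),(7,1),(11,1),(23,1)]) (by decide +kernel)
    (by
      intro x hx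
      simp only [List.mem_cons, List.not_mem_nil, or_false] at hx
      rcases hx with rfl | rfl | rfl | rfl | rfl | rfl <;> norm_num)
    (by decide +kernel) h4 hiso (D := []) (by decide +kernel)
  exact List.not_mem_nil hm

/-- **`M₂₄`.** -/
theorem row_m24 {S : Type u} [Group S] [Finite S] (_hs : IsSimpleGroup S) (h : Spor.IsoM24 S) : H730.OZ.Row S := by
  obtain ⟨e⟩ := h
  have hfin : Finite M24 := Finite.of_equiv _ e.toEquiv
  exact H730.OZ.Row.congr e row_m24'

theorem row_m23' [Finite Spor.M23] : H730.OZ.Row Spor.M23 := by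
  have hN : Nat.card Spor.M23 = 10200960 := H715.Fpr.MathData.card23
  have hs : IsSimpleGroup Spor.M23 := H715.Fpr.MathData.simple23
  refine row_of fun χ x h => ?_
  have h4 : 4 ≤ cent x := four_le_cent h (by rw [hN]; norm_num) (by rw [hN]; norm_num)
  have hiso : ∀ r ∈ [11, 23], charDegree (χ : Spor.M23 → ℂ) % r = 0 ∨
      charDegree (χ : Spor.M23 → ℂ) % r = 1 ∨ charDegree (χ : Spor.M23 → ℂ) % r = r - 1 := by
    intro r hr
    simp only [List.mem_cons, List.not_mem_nil, or_false] at hr
    rcases hr with rfl | rfl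
    · exact iso_mod h (by norm_num) (by norm_num) (by rw [hN]; norm_num) (by rw [hN]; norm_num) (by rw [hN]; norm_num)
        (fun y hy => card_cent_zpowers H715.Fpr.MathData.cn23_11 hy) h4
    · exact iso_mod h (by norm_num) (by norm_num) (by rw [hN]; norm_num) (by rw [hN]; norm_num) (by rw [hN]; norm_num)
        (fun y hy => card_cent_zpowers H715.Fpr.MathData.cn23_23 hy) h4
  have hm := mem_of_sieve4 h hN (l := [(2,7),(3,2),(5,1),(7,1),(11,1),(23,1)]) (by decide +kernel)
    (by
      intro x hx
      simp only [List.mem_cons, List.not_mem_nil, or_false] at hx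
      rcases hx with rfl | rfl | rfl | rfl | rfl | rfl <;> norm_num)
    (by decide +kernel) h4 hiso (D := []) (by decide +kernel)
  exact List.not_mem_nil hm

/-- **`M₂₃`.** -/
theorem row_m23 {S : Type u} [Group S] [Finite S] (_hs : IsSimpleGroup S) (h : Spor.IsoM23 S) : H730.OZ.Row S := by
  obtain ⟨e⟩ := h
  have hfin : Finite Spor.M23 := Finite.of_equiv _ e.toEquiv
  exact H730.OZ.Row.congr e row_m23'

end Cfsg.Agent.H672.OZ
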