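import Cfsg.Agent.H672.OZ.Full
import Cfsg.Agent.H730.OZ.Asm
import Cfsg.Agent.H417.JOneDeg
import Cfsg.Agent.H417.JFourDeg
import Cfsg.Agent.H680.ONThirtyOne
import Cfsg.Agent.H204.Ore.LySmall
import Cfsg.Agent.H215.CC.LyThirtySeven

/-!
# One vanishing class: `J₁`, `J₄`, `O'N`, `Ly` (helper672, S4842)

The order of the group, the isolated primes (helper849's T5) and `Full` leave no degree.
-/

set_option autoImplicit false
set_option maxRecDepth 100000

open Cfsg Cfsg.Agent.Characters Cfsg.Agent.H732.VZ Cfsg.Agent.H604.OZ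

namespace Cfsg.Agent.H672.OZ

universe u

/-! ### `J₄` -/

theorem row_j4' [Finite Spor.J4] : H730.OZ.Row Spor.J4 := by
  have hN : Nat.card Spor.J4 = 86775571046077562880 := H417.JFourDeg.card_K
  have hs : IsSimpleGroup Spor.J4 := (KFacts.J4.Base.exists_full H417.JFourDeg.isoK).2.1
  refine row_of fun χ x h => ?_
  have h4 : 4 ≤ cent x := four_le_cent h (by rw [hN]; norm_num) (by rw [hN]; norm_num)
  have hiso : ∀ r ∈ [23, 29, 31, 37, 43], charDegree (χ : Spor.J4 → ℂ) % r = 0 ∨
      charDegree (χ : Spor.J4 → ℂ) % r = 1 ∨ charDegree (χ : Spor.J4 → ℂ) % r = r - 1 := by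
    intro r hr
    simp only [List.mem_cons, List.not_mem_nil, or_false] at hr
    rcases hr with rfl | rfl | rfl | rfl | rfl
    · exact iso_mod h (by norm_num) (by norm_num) (by rw [hN]; norm_num) (by rw [hN]; norm_num) (by rw [hN]; norm_num)
        (H417.JFourDeg.cent_of fun P hP => (H859.BigNum.data23 hP).1) h4
    · exact iso_mod h (by norm_num) (by norm_num) (by rw [hN]; norm_num) (by rw [hN]; norm_num) (by rw [hN]; norm_num)
        (H417.JFourDeg.cent_of fun P hP => (H859.BigNum.data29' hP).1) h4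
    · exact iso_mod h (by norm_num) (by norm_num) (by rw [hN]; norm_num) (by rw [hN]; norm_num) (by rw [hN]; norm_num)
        (H417.JFourDeg.cent_of fun P hP => (H859.BigNum.data31 hP).1) h4
    · exact iso_mod h (by norm_num) (by norm_num) (by rw [hN]; norm_num) (by rw [hN]; norm_num) (by rw [hN]; norm_num)
        (H417.JFourDeg.cent_of fun P hP => (H859.BigNum.data37 hP).1) h4
    · exact iso_mod h (by norm_num) (by norm_num) (by rw [hN]; norm_num) (by rw [hN]; norm_num) (by rw [hN]; norm_num)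
        (H417.JFourDeg.cent_of fun P hP => (H859.BigNum.data43 hP).1) h4
  have hm := mem_of_sieve h hN (l := H417.JFourList.lJ) (by decide +kernel) H417.JFourList.primes_ok
    (by decide +kernel) h4 hiso (D := []) (by decide +kernel)
  exact List.not_mem_nil hm

/-- **`J₄`.** -/
theorem row_j4 {S : Type u} [Group S] [Finite S] (_hs : IsSimpleGroup S) (h : Spor.IsoJ4 S) : H730.OZ.Row S := by
  obtain ⟨e⟩ := h
  have hfin : Finite Spor.J4 := Finite.of_equiv _ e.toEquiv
  exact H730.OZ.Row.congr e row_j4'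

/-! ### `O'N` -/

theorem row_on' [Finite Spor.ON] : H730.OZ.Row Spor.ON := by
  have hN : Nat.card Spor.ON = 460815505920 := KFacts.ON.OneClass.card_ON
  have hs : IsSimpleGroup Spor.ON := KFacts.ON.OneClass.hs
  refine row_of fun χ x h => ?_
  have h4 : 4 ≤ cent x := four_le_cent h (by rw [hN]; norm_num) (by rw [hN]; norm_num)
  have hiso : ∀ r ∈ [11, 19, 31], charDegree (χ : Spor.ON → ℂ) % r = 0 ∨
      charDegree (χ : Spor.ON → ℂ) % r = 1 ∨ charDegree (χ : Spor.ON → ℂ) % r = r - 1 := by
    intro r hr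
    simp only [List.mem_cons, List.not_mem_nil, or_false] at hr
    rcases hr with rfl | rfl | rfl
    · exact iso_mod h (by norm_num) (by norm_num) (by rw [hN]; norm_num) (by rw [hN]; norm_num) (by rw [hN]; norm_num)
        (fun y hy => H474.ONC.card_cent_eleven hy) h4
    · exact iso_mod h (by norm_num) (by norm_num) (by rw [hN]; norm_num) (by rw [hN]; norm_num) (by rw [hN]; norm_num)
        (fun y hy => H680.ONThirtyOne.card_cent_nineteen hy) h4
    · exact iso_mod h (by norm_num) (by norm_num) (by rw [hN]; norm_num) (by rw [hN]; norm_num) (by rw [hN]; norm_num)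
        (fun y hy => H680.ONThirtyOne.card_cent hy) h4
  have hm := mem_of_sieve h hN (l := [(2,9),(3,4),(5,1),(7,3),(11,1),(19,1),(31,1)]) (by decide +kernel)
    (by
      intro x hx
      simp only [List.mem_cons, List.not_mem_nil, or_false] at hx
      rcases hx with rfl | rfl | rfl | rfl | rfl | rfl | rfl <;> norm_num)
    (by decide +kernel) h4 hiso (D := []) (by decide +kernel)
  exact List.not_mem_nil hm

/-- **`O'N`.** -/
theorem row_on {S : Type u} [Group S] [Finite S] (_hs : IsSimpleGroup S) (h : Spor.IsoON S) : H730.OZ.Row S := by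
  obtain ⟨e⟩ := h
  have hfin : Finite Spor.ON := Finite.of_equiv _ e.toEquiv
  exact H730.OZ.Row.congr e row_on'

/-! ### `Ly` -/

theorem row_ly' (hK : H995.CopEngine.AllKnown.{0}) [Finite Spor.Ly] : H730.OZ.Row Spor.Ly := by
  have hN : Nat.card Spor.Ly = 51765179004000000 := Cfsg.Agent.Ly.Setup.card_ly
  have hs : IsSimpleGroup Spor.Ly := Cfsg.Agent.Ly.Setup.isSimple_ly
  refine row_of fun χ x h => ?_
  have h4 : 4 ≤ cent x := four_le_cent h (by rw [hN]; norm_num) (by rw [hN]; norm_num)
  have hiso : ∀ r ∈ [31, 37, 67], charDegree (χ : Spor.Ly → ℂ) % r = 0 ∨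
      charDegree (χ : Spor.Ly → ℂ) % r = 1 ∨ charDegree (χ : Spor.Ly → ℂ) % r = r - 1 := by
    intro r hr
    simp only [List.mem_cons, List.not_mem_nil, or_false] at hr
    rcases hr with rfl | rfl | rfl
    · exact iso_mod h (by norm_num) (by norm_num) (by rw [hN]; norm_num) (by rw [hN]; norm_num) (by rw [hN]; norm_num)
        (fun y hy => H204.Ore.LySmall.card31 hy) h4
    · exact iso_mod h (by norm_num) (by norm_num) (by rw [hN]; norm_num) (by rw [hN]; norm_num) (by rw [hN]; norm_num)
        (fun y hy => H215.CC.LyThirtySeven.card_centralizer hK ⟨MulEquiv.refl _⟩ hy) h4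
    · exact iso_mod h (by norm_num) (by norm_num) (by rw [hN]; norm_num) (by rw [hN]; norm_num) (by rw [hN]; norm_num)
        (fun y hy => H204.Ore.LySmall.card67 hy) h4
  have hm := mem_of_sieve h hN (l := [(2,8),(3,7),(5,6),(7,1),(11,1),(31,1),(37,1),(67,1)]) (by decide +kernel)
    (by
      intro x hx
      simp only [List.mem_cons, List.not_mem_nil, or_false] at hx
      rcases hx with rfl | rfl | rfl | rfl | rfl | rfl | rfl | rfl <;> norm_num)
    (by decide +kernel) h4 hiso (D := []) (by decide +kernel)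
  exact List.not_mem_nil hm

/-- **`Ly`** (with the classification, for the centralizer of an element of order 37). -/
theorem row_ly (hK : H995.CopEngine.AllKnown.{0}) {S : Type u} [Group S] [Finite S] (_hs : IsSimpleGroup S)
    (h : Spor.IsoLy S) : H730.OZ.Row S := by
  obtain ⟨e⟩ := h
  have hfin : Finite Spor.Ly := Finite.of_equiv _ e.toEquiv
  exact H730.OZ.Row.congr e (row_ly' hK)

/-! ### `J₁` -/

theorem row_j1' [Finite Spor.J1] : H730.OZ.Row Spor.J1 := by
  have hc := H413.JOneLocal.card_J1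
  have hL := H413.JOneLocal.isLocal
  have hsim : IsSimpleGroup Spor.J1 := SporadicB.J1.Main.isJ1.1
  refine row_of fun χ x h => ?_
  have f7 : Fact (Nat.Prime 7) := ⟨by norm_num⟩
  have f11 : Fact (Nat.Prime 11) := ⟨by norm_num⟩
  have f19 : Fact (Nat.Prime 19) := ⟨by norm_num⟩
  obtain ⟨P7, hP7, ⟨D⟩⟩ := H417.BlockCount.exists_SC (G := Spor.J1) 7 (by norm_num) (by rw [hc]; norm_num)
    (by rw [hc]; norm_num) (fun y hy => by
      rw [H417.JOneDeg.card_cent hL hc (by rw [hy]; unfold H413.JOneSpec.Big; tauto), hy]) (e := 6) (t := 1)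
    (by rw [hc]) (by norm_num)
  obtain ⟨Q, hQ, ⟨E⟩⟩ := H417.BlockCount.exists_SC (G := Spor.J1) 11 (by norm_num) (by rw [hc]; norm_num)
    (by rw [hc]; norm_num) (fun y hy => by
      rw [H417.JOneDeg.card_cent hL hc (by rw [hy]; unfold H413.JOneSpec.Big; tauto), hy]) (e := 10) (t := 1)
    (by rw [hc]) (by norm_num)
  obtain ⟨R, hR, ⟨F⟩⟩ := H417.BlockCount.exists_SC (G := Spor.J1) 19 (by norm_num) (by rw [hc]; norm_num)
    (by rw [hc]; norm_num) (fun y hy => by
      rw [H417.JOneDeg.card_cent hL hc (by rw [hy]; unfold H413.JOneSpec.Big; tauto), hy]) (e := 6) (t := 3)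
    (by rw [hc]) (by norm_num)
  have hdg : M23Order.Base.dg χ = charDegree (χ : Spor.J1 → ℂ) := rfl
  have h2 := H417.BlockCount.mod_cases D (by norm_num) (by norm_num) (by norm_num) χ
  have h3 := H417.BlockCount.mod_cases E (by norm_num) (by norm_num) (by norm_num) χ
  have h5 := H417.BlockCount.mod_cases F (by norm_num) (by norm_num) (by norm_num) χ
  rw [hdg] at h2 h3 h5
  have h6 := okd_of h hc (c0 := 1) (l := [(2,3),(3,1),(5,1),(7,1),(11,1),(19,1)]) (iso := []) (by decide +kernel)
    H417.JOneDeg.primes_ok (by decide +kernel) Nat.card_pos (by simp)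
  have h1 := H417.Divs.all_divs [(2,3),(3,1),(5,1),(7,1),(11,1),(19,1)] H417.JOneDeg.primes_ok (N := 175560)
    (by decide +kernel)
    (f := fun d => !(okd 175560 1 [(2,3),(3,1),(5,1),(7,1),(11,1),(19,1)] [] d) || (!(H417.JFourList.okm 7 6 d) ||
      (!(H417.JFourList.okm 11 10 d) || !(H417.JFourList.okm 19 6 d)))) (by decide +kernel)
    (d := charDegree (χ : Spor.J1 → ℂ)) (by rw [← hc]; exact deg_dvd χ)
  rw [h6, H417.JFourList.okm_of h2, H417.JFourList.okm_of h3, H417.JFourList.okm_of h5] at h1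
  exact absurd h1 (by decide)

/-- **`J₁`.** -/
theorem row_j1 {S : Type u} [Group S] [Finite S] (_hs : IsSimpleGroup S) (h : Spor.IsoJ1 S) : H730.OZ.Row S := by
  obtain ⟨e⟩ := h
  have hfin : Finite Spor.J1 := Finite.of_equiv _ e.toEquiv
  exact H730.OZ.Row.congr e row_j1'

end Cfsg.Agent.H672.OZ
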